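import Cfsg.Agent.Lib.FFModules.MinimalParabolic.Structure
import Cfsg.Agent.Lib.FFModules.SL2Pair.StronglyEmbedded
import Cfsg.Prelude.Def_BaumannBlocks

/-!
From the abstract module back to a subgroup of the ambient group acting by conjugation.
-/

set_option autoImplicit false
set_option linter.style.haveILetI false
set_option linter.unusedSectionVars false

namespace CfsgLib.FFModules.MinimalParabolic

open SL2Pair
open scoped Pointwise commutatorElement

variable {G : Type*} [Group G] {V P : Subgroup G} [IsMulCommutative ↥V]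
variable (hPV : P ≤ Subgroup.normalizer (V : Set G))

open scoped IsMulCommutative in
/-- The moved part of the abstract module as a subgroup of the ambient group. -/
theorem commutator_eq_moves (E : Subgroup ↥P) :
    letI := conjAction V P hPV
    ∀ x : G, x ∈ ⁅V, E.map P.subtype⁆ ↔
      ∃ hx : x ∈ V, Additive.ofMul (⟨x, hx⟩ : ↥V) ∈ moves E (Additive ↥V) := by
  letI := conjAction V P hPV
  intro x
  let S : Subgroup G := (AddSubgroup.toSubgroup' (moves E (Additive ↥V))).map V.subtype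
  constructor
  · intro hx
    have hle : ⁅V, E.map P.subtype⁆ ≤ S := by
      refine Subgroup.commutator_le.2 fun v hv g hg => ?_
      obtain ⟨e, he, rfl⟩ := hg
      have hmem := neg_mem (sub_mem_moves he (Additive.ofMul (⟨v, hv⟩ : ↥V)))
      refine ⟨(-(e • Additive.ofMul (⟨v, hv⟩ : ↥V) - Additive.ofMul (⟨v, hv⟩ : ↥V))).toMul, hmem, ?_⟩
      show ((((e : G) * v * (e : G)⁻¹) / v)⁻¹ : G) = _
      rw [div_eq_mul_inv, commutatorElement_def, mul_inv_rev, inv_inv, mul_inv_rev, mul_inv_rev,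
        inv_inv]
      simp [mul_assoc]
    obtain ⟨y, hy, rfl⟩ := hle hx
    exact ⟨y.2, hy⟩
  · rintro ⟨hx, hm⟩
    suffices ∀ w ∈ moves E (Additive ↥V), (w.toMul : G) ∈ ⁅V, E.map P.subtype⁆ from this _ hm
    intro w hw
    induction hw using AddSubgroup.closure_induction with
    | mem w hw =>
      obtain ⟨e, he, u, rfl⟩ := hw
      show ((e : G) * (u.toMul : G) * (e : G)⁻¹) / (u.toMul : G) ∈ _
      rw [div_eq_mul_inv, ← commutatorElement_def, ← commutatorElement_inv]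
      exact inv_mem (Subgroup.commutator_mem_commutator u.toMul.2 ⟨e, he, rfl⟩)
    | zero => exact one_mem _
    | add a b _ _ ha hb => exact mul_mem ha hb
    | neg a _ ha => exact inv_mem ha

open scoped IsMulCommutative in
/-- A coordinate map on the module induces one on the section. -/
theorem section_data (E : Subgroup ↥P) {A : Type} [AddCommGroup A] (ψ : Additive ↥V →+ A) :
    letI := conjAction V P hPV
    moves E (Additive ↥V) ⊔ fixedSub E = ⊤ → (∀ v, ψ v = 0 ↔ v ∈ fixedSub E) →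
    (E.map P.subtype ≤ Subgroup.normalizer ((⁅V, E.map P.subtype⁆ : Subgroup G) : Set G)) ∧
    ∃ ψ' : ↥⁅V, E.map P.subtype⁆ →* Multiplicative A,
      (∀ v : Additive ↥V, ∃ u : ↥⁅V, E.map P.subtype⁆, Multiplicative.toAdd (ψ' u) = ψ v) ∧
      (∀ u : ↥⁅V, E.map P.subtype⁆, ψ' u = 1 ↔
        (u : G) ∈ ⁅V, E.map P.subtype⁆ ⊓ Subgroup.centralizer ((E.map P.subtype : Subgroup G) : Set G)) ∧
      ∀ u : ↥⁅V, E.map P.subtype⁆, ∃ v : Additive ↥V, Multiplicative.toAdd (ψ' u) = ψ v ∧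
        ∀ e : ↥E, ∃ w : ↥⁅V, E.map P.subtype⁆, (w : G) = ((e : ↥P) : G) * u * ((e : ↥P) : G)⁻¹ ∧
          Multiplicative.toAdd (ψ' w) = ψ ((e : ↥P) • v) := by
  letI := conjAction V P hPV
  intro hsplit hker
  have hU := commutator_eq_moves hPV E
  set U := ⁅V, E.map P.subtype⁆
  have hUV : ∀ {x : G}, x ∈ U → x ∈ V := fun hx => ((hU _).1 hx).1
  let ψ' : ↥U →* Multiplicative A :=
    { toFun := fun u => Multiplicative.ofAdd (ψ (Additive.ofMul ⟨u, hUV u.2⟩))
      map_one' := congrArg Multiplicative.ofAdd ψ.map_zero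
      map_mul' := fun u u' => congrArg Multiplicative.ofAdd
        (ψ.map_add (Additive.ofMul ⟨u, hUV u.2⟩) (Additive.ofMul ⟨u', hUV u'.2⟩)) }
  have hsmul : ∀ e ∈ E, ∀ x ∈ U, (e : G) * x * (e : G)⁻¹ ∈ U := fun e he x hx => by
    obtain ⟨hxV, hm⟩ := (hU x).1 hx
    exact (hU _).2 ⟨_, smul_mem_moves_self he hm⟩
  refine ⟨?_, ψ', fun v => ?_, fun u => ?_, fun u => ?_⟩
  · rintro _ ⟨e, he, rfl⟩
    refine Subgroup.mem_normalizer_iff.2 fun x => ⟨hsmul e he x, fun hx => ?_⟩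
    have := hsmul _ (E.inv_mem he) _ hx
    simpa [mul_assoc] using this
  · obtain ⟨m, hm, c, hc, rfl⟩ := AddSubgroup.mem_sup.1
      (show v ∈ moves E (Additive ↥V) ⊔ fixedSub E from hsplit ▸ AddSubgroup.mem_top v)
    refine ⟨⟨(m.toMul : G), (hU _).2 ⟨m.toMul.2, hm⟩⟩, ?_⟩
    rw [map_add, (hker c).2 hc, add_zero]
    rfl
  · rw [Subgroup.mem_inf, and_iff_right u.2]
    refine Iff.trans ?_ (conjAction_fixedSub (hHV := hPV) (A := E)
      (v := Additive.ofMul (⟨u, hUV u.2⟩ : ↥V)))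
    rw [← hker]
    exact Iff.rfl
  · exact ⟨Additive.ofMul ⟨u, hUV u.2⟩, rfl, fun e => ⟨⟨_, hsmul _ e.2 _ u.2⟩, rfl, rfl⟩⟩

open scoped IsMulCommutative in
theorem actsAsSL2 (E : Subgroup ↥P) {F : Type} [Field F]
    (ρ : ↥E ≃* Matrix.SpecialLinearGroup (Fin 2) F) (ψ : Additive ↥V →+ (Fin 2 → F)) :
    letI := conjAction V P hPV
    moves E (Additive ↥V) ⊔ fixedSub E = ⊤ → Function.Surjective ψ →
    (∀ v, ψ v = 0 ↔ v ∈ fixedSub E) →
    (∀ (g : E) (v : Additive ↥V), ψ ((g : ↥P) • v) =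
      ((ρ g : Matrix.SpecialLinearGroup (Fin 2) F) : Matrix (Fin 2) (Fin 2) F).mulVec (ψ v)) →
    Nonempty (↥(E.map P.subtype) ≃* Matrix.SpecialLinearGroup (Fin 2) F) ∧
      Cfsg.ActsAsSL2OnSection F ⊤ (E.map P.subtype) ⁅V, E.map P.subtype⁆
        (⁅V, E.map P.subtype⁆ ⊓ Subgroup.centralizer ((E.map P.subtype : Subgroup G) : Set G)) := by
  letI := conjAction V P hPV
  intro hsplit hsurj hker heq
  obtain ⟨hnorm, ψ', honto, hker', hequiv⟩ := section_data hPV E ψ hsplit hker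
  set f := E.equivMapOfInjective P.subtype P.subtype_injective
  refine ⟨⟨f.symm.trans ρ⟩, hnorm, inf_le_left, (f.symm.trans ρ).toMonoidHom, ψ',
    MonoidHom.range_eq_top.2 (f.symm.trans ρ).surjective, fun w => ?_, hker', fun e u => ?_⟩
  · obtain ⟨v, hv⟩ := hsurj (Multiplicative.toAdd w)
    obtain ⟨u, hu⟩ := honto v
    exact ⟨u, Multiplicative.toAdd.injective (hu.trans hv)⟩
  · obtain ⟨v, hv, hall⟩ := hequiv u
    obtain ⟨e', rfl⟩ := f.surjective e
    obtain ⟨w, hw, hw'⟩ := hall e'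
    refine ⟨w, hw, ?_⟩
    rw [hw', heq, hv]
    simp

open scoped IsMulCommutative in
theorem actsAsOddPerm (E : Subgroup ↥P) {n : ℕ} (ρ : ↥E ≃* Equiv.Perm (Fin n))
    (ψ : Additive ↥V →+ (Fin n → ZMod 2)) :
    letI := conjAction V P hPV
    moves E (Additive ↥V) ⊔ fixedSub E = ⊤ → (∀ v, ∑ i, ψ v i = 0) →
    (∀ u : Fin n → ZMod 2, ∑ i, u i = 0 → ∃ v, ψ v = u) →
    (∀ v, ψ v = 0 ↔ v ∈ fixedSub E) →
    (∀ (g : E) (v : Additive ↥V) (i : Fin n), ψ ((g : ↥P) • v) i = ψ v ((ρ g)⁻¹ i)) →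
    Nonempty (↥(E.map P.subtype) ≃* Equiv.Perm (Fin n)) ∧
      Cfsg.ActsAsOddPermModuleOnSection n ⊤ (E.map P.subtype) ⁅V, E.map P.subtype⁆
        (⁅V, E.map P.subtype⁆ ⊓ Subgroup.centralizer ((E.map P.subtype : Subgroup G) : Set G)) := by
  letI := conjAction V P hPV
  intro hsplit hsum hon hker heq
  obtain ⟨hnorm, ψ', honto, hker', hequiv⟩ := section_data hPV E ψ hsplit hker
  set f := E.equivMapOfInjective P.subtype P.subtype_injective
  refine ⟨⟨f.symm.trans ρ⟩, hnorm, inf_le_left, (f.symm.trans ρ).toMonoidHom, ψ',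
    MonoidHom.range_eq_top.2 (f.symm.trans ρ).surjective, fun u => ?_, fun x hx => ?_, hker',
    fun e u => ?_⟩
  · obtain ⟨v, hv, -⟩ := hequiv u
    rw [hv]; exact hsum v
  · obtain ⟨v, hv⟩ := hon x hx
    obtain ⟨u, hu⟩ := honto v
    exact ⟨u, hu.trans hv⟩
  · obtain ⟨v, hv, hall⟩ := hequiv u
    obtain ⟨e', rfl⟩ := f.surjective e
    obtain ⟨w, hw, hw'⟩ := hall e'
    refine ⟨w, hw, fun i => ?_⟩
    rw [hw', heq, hv]
    simp

end CfsgLib.FFModules.MinimalParabolic
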