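import Cfsg.Agent.Lib.FFModules.MinimalParabolic.LocalQuotient
import Cfsg.Agent.Lib.Cores.Basic

/-!
Facts about a `p`-minimal group of characteristic `p` with `C**(G,T)` proper: the hypotheses on
`G / C_G(V)` and the offenders coming from `J(G)`.
-/

set_option autoImplicit false
set_option linter.style.haveILetI false
set_option linter.unusedSectionVars false

namespace CfsgLib.FFModules.MinimalParabolic

open SL2Pair
open scoped Pointwise commutatorElement IsMulCommutative

variable {G : Type*} [Group G] {p : ℕ}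

theorem isElementaryAbelian_omegaOneCenter (Q : Subgroup G) :
    Cfsg.IsElementaryAbelian p (Cfsg.omegaOneCenter p Q) :=
  ThompsonJ.isElementaryAbelian_omegaOne (ThompsonJ.inf_centralizer_le_centralizer_self _)

theorem omegaOneCenter_normal (Q : Subgroup G) [hQ : Q.Normal] :
    (Cfsg.omegaOneCenter p Q).Normal := ⟨fun x hx g => by
  have hle : Cfsg.omegaOneCenter p Q ≤
      (Cfsg.omegaOneCenter p Q).comap (MulAut.conj g).toMonoidHom := by
    refine (Subgroup.closure_le _).2 fun y hy => ?_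
    obtain ⟨⟨hy1, hy2⟩, hyp⟩ := hy
    show g * y * g⁻¹ ∈ Cfsg.omegaOneCenter p Q
    refine ThompsonJ.mem_omegaOne ⟨hQ.conj_mem y hy1 g, Subgroup.mem_centralizer_iff.2 fun z hz => ?_⟩
      (by rw [conj_pow, hyp, mul_one, mul_inv_cancel])
    have h1 := Subgroup.mem_centralizer_iff.1 hy2 _ (hQ.conj_mem z hz g⁻¹)
    calc z * (g * y * g⁻¹) = g * ((g⁻¹ * z * g⁻¹⁻¹) * y) * g⁻¹ := by group
      _ = g * (y * (g⁻¹ * z * g⁻¹⁻¹)) * g⁻¹ := by rw [h1]
      _ = g * y * g⁻¹ * z := by group
  exact hle hx⟩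

variable [Finite G] [Fact p.Prime]

theorem smul_eq_of_normal (N : Subgroup G) [hN : N.Normal] (g : G) : MulAut.conj g • N = N := by
  refine Subgroup.eq_of_le_of_card_ge ?_ (card_smul_subgroup N g).ge
  intro y hy
  obtain ⟨x, hx, rfl⟩ := (Subgroup.mem_smul_pointwise_iff_exists _ _ _).1 hy
  exact hN.conj_mem x hx g

/-- The Frattini argument for the trace of a Sylow subgroup on a normal subgroup. -/
theorem normalizer_inf_sup_eq_top (T : Sylow p G) (N : Subgroup G) [hN : N.Normal] :
    Subgroup.normalizer (((T : Subgroup G) ⊓ N : Subgroup G) : Set G) ⊔ N = ⊤ := by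
  obtain ⟨P⟩ : Nonempty (Sylow p N) := inferInstance
  obtain ⟨T', hT'⟩ := (P.isPGroup'.map N.subtype).exists_le_sylow
  obtain ⟨g, rfl⟩ := MulAction.exists_smul_eq G T T'
  have hconj : MulAut.conj g • ((T : Subgroup G) ⊓ N) = (P : Subgroup N).map N.subtype := by
    rw [Subgroup.smul_inf, smul_eq_of_normal N g]
    refine le_antisymm ?_ (le_inf ?_ (Subgroup.map_subtype_le _))
    · rw [← Sylow.coe_subgroup_smul]
      set Q : Subgroup G := ((g • T : Sylow p G) : Subgroup G) ⊓ N with hQ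
      have h1 : IsPGroup p (Q.subgroupOf N) :=
        ((g • T).isPGroup'.to_le inf_le_left).of_injective
          (Subgroup.subgroupOfEquivOfLe (inf_le_right : Q ≤ N)).toMonoidHom
          (MulEquiv.injective _)
      have h2 : (P : Subgroup N) ≤ Q.subgroupOf N := fun x hx =>
        Subgroup.mem_subgroupOf.2 ⟨hT' ⟨x, hx, rfl⟩, x.2⟩
      rw [← P.is_maximal' h1 h2, Subgroup.map_subgroupOf_eq_of_le inf_le_right]
    · rw [← Sylow.coe_subgroup_smul]; exact hT'
  have hfr := Sylow.normalizer_sup_eq_top P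
  rw [← hconj] at hfr
  refine eq_top_iff.2 fun x _ => ?_
  have hx : g * x * g⁻¹ ∈ Subgroup.normalizer
      ((MulAut.conj g • ((T : Subgroup G) ⊓ N) : Subgroup G) : Set G) ⊔ N := hfr ▸ Subgroup.mem_top _
  obtain ⟨a, ha, b, hb, e⟩ := Subgroup.mem_sup_of_normal_right.1 hx
  have : g⁻¹ * a * g ∈ Subgroup.normalizer (((T : Subgroup G) ⊓ N : Subgroup G) : Set G) := by
    refine Subgroup.mem_normalizer_iff.2 fun y => ?_
    have h1 := Subgroup.mem_normalizer_iff.1 ha (g * y * g⁻¹)
    rw [← MulAut.conj_apply, ← MulAut.smul_def, Subgroup.smul_mem_pointwise_smul_iff,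
      show a * (MulAut.conj g • y) * a⁻¹ = MulAut.conj g • (g⁻¹ * a * g * y * (g⁻¹ * a * g)⁻¹) by
        rw [MulAut.smul_def, MulAut.smul_def, MulAut.conj_apply, MulAut.conj_apply]; group,
      Subgroup.smul_mem_pointwise_smul_iff] at h1
    exact h1
  have hb' : g⁻¹ * b * g ∈ N := by
    have := hN.conj_mem b hb g⁻¹
    rwa [inv_inv] at this
  have ex : x = g⁻¹ * a * g * (g⁻¹ * b * g) := by
    rw [show g⁻¹ * a * g * (g⁻¹ * b * g) = g⁻¹ * (a * b) * g by group, e]; group
  exact ex ▸ Subgroup.mul_mem_sup this hb'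

theorem card_mul_card_eq (B D : Subgroup G) (h : B ≤ Subgroup.centralizer (D : Set G)) :
    Nat.card B * Nat.card D = Nat.card ↥(B ⊔ D) * Nat.card ↥(B ⊓ D) := by
  have hn : B ≤ Subgroup.normalizer (D : Set G) := h.trans (Subgroup.centralizer_le_normalizer _)
  have h1 := Subgroup.relIndex_mul_relIndex ⊥ D (B ⊔ D) bot_le le_sup_right
  have h2 := Subgroup.relIndex_mul_relIndex ⊥ (B ⊓ D) B bot_le inf_le_left
  have h3 : (B ⊓ D).relIndex B = D.relIndex B := Subgroup.inf_relIndex_left B D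
  have h4 : D.relIndex (B ⊔ D) = D.relIndex B := by
    haveI : (D.subgroupOf (D ⊔ B)).Normal := (Subgroup.normal_subgroupOf_iff_le_normalizer le_sup_left).2
      (sup_le Subgroup.le_normalizer hn)
    have h5 := Subgroup.relIndex_sup_left (K := D.subgroupOf (D ⊔ B)) (H := B.subgroupOf (D ⊔ B))
    rw [← Subgroup.subgroupOf_sup le_sup_left le_sup_right, Subgroup.subgroupOf_self,
      Subgroup.relIndex_top_right, Subgroup.relIndex_subgroupOf le_sup_right] at h5
    rw [sup_comm]
    exact h5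
  rw [Subgroup.relIndex_bot_left, Subgroup.relIndex_bot_left] at h1 h2
  rw [← h1, ← h2, h3, h4]
  ring

end CfsgLib.FFModules.MinimalParabolic
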