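import Cfsg.Agent.Lib.FFModules.MinimalParabolic.OffenderInProduct
import Cfsg.Agent.Lib.FFModules.MinimalParabolic.Moved
import Cfsg.Agent.Lib.FFModules.SL2Pair.StronglyEmbedded
import Cfsg.Agent.Lib.ThompsonJ.Basic
import Cfsg.Prelude.Def_BaumannBlocks
import Cfsg.Prelude.Def_LocalEven

/-!
A `p`-minimal group of characteristic `p` modulo the centralizer of `Ω₁(Z(O_p))`.
-/

set_option autoImplicit false
set_option linter.style.haveILetI false
set_option linter.unusedSectionVars false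

namespace CfsgLib.FFModules.MinimalParabolic

open SL2Pair
open scoped Pointwise commutatorElement IsMulCommutative

variable {G : Type*} [Group G]

/-- The action of `G / C_G(V)` on `V` by conjugation. -/
@[reducible] noncomputable def quotAction (V : Subgroup G) [V.Normal] [IsMulCommutative ↥V] :
    DistribMulAction (G ⧸ Subgroup.centralizer (V : Set G)) (Additive ↥V) :=
  let Φ : G ⧸ Subgroup.centralizer (V : Set G) →* MulAut ↥V :=
    QuotientGroup.lift _ MulAut.conjNormal fun g hg => MonoidHom.mem_ker.2 <| MulEquiv.ext fun v =>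
      Subtype.ext (by
        rw [MulAut.conjNormal_apply, MulAut.one_apply,
          ← Subgroup.mem_centralizer_iff.1 hg _ v.2, mul_inv_cancel_right])
  { smul := fun q v => Additive.ofMul (Φ q v.toMul)
    one_smul := fun v => by show Additive.ofMul (Φ 1 v.toMul) = v; rw [map_one]; rfl
    mul_smul := fun q q' v => by
      show Additive.ofMul (Φ (q * q') v.toMul) = Additive.ofMul (Φ q (Φ q' v.toMul))
      rw [map_mul]; rfl
    smul_zero := fun q => by show Additive.ofMul (Φ q 1) = 0; rw [map_one]; rfl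
    smul_add := fun q v w => by
      show Additive.ofMul (Φ q (v.toMul * w.toMul)) = _
      rw [map_mul]; rfl }

theorem quotAction_smul {V : Subgroup G} [V.Normal] [IsMulCommutative ↥V] (g : G) (v : Additive ↥V) :
    letI := quotAction V
    ((((QuotientGroup.mk g : G ⧸ Subgroup.centralizer (V : Set G)) • v).toMul : ↥V) : G) =
      g * (v.toMul : G) * g⁻¹ := rfl

/-- Fixed points and centralizers. -/
theorem quotAction_fixedSub {V : Subgroup G} [V.Normal] [IsMulCommutative ↥V] (X : Subgroup G)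
    (v : Additive ↥V) :
    letI := quotAction V
    v ∈ fixedSub (X.map (QuotientGroup.mk' (Subgroup.centralizer (V : Set G)))) ↔
      (v.toMul : G) ∈ Subgroup.centralizer (X : Set G) := by
  letI := quotAction V
  rw [Subgroup.mem_centralizer_iff]
  refine ⟨fun h x hx => ?_, ?_⟩
  · have h1 := congrArg (fun w : Additive ↥V => (w.toMul : G)) (h _ (Subgroup.mem_map_of_mem _ hx))
    exact mul_inv_eq_iff_eq_mul.1 h1
  · rintro h _ ⟨x, hx, rfl⟩
    refine Additive.toMul.injective (Subtype.ext ?_)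
    show x * (v.toMul : G) * x⁻¹ = _
    rw [h x hx, mul_inv_cancel_right]

/-- Moved vectors and commutators. -/
theorem quotAction_moves {V : Subgroup G} [V.Normal] [IsMulCommutative ↥V]
    (E : Subgroup (G ⧸ Subgroup.centralizer (V : Set G))) :
    letI := quotAction V
    ∀ x : G, x ∈ ⁅V, E.comap (QuotientGroup.mk' (Subgroup.centralizer (V : Set G)))⁆ ↔
      ∃ hx : x ∈ V, Additive.ofMul (⟨x, hx⟩ : ↥V) ∈ moves E (Additive ↥V) := by
  letI := quotAction V
  intro x
  let S : Subgroup G := (AddSubgroup.toSubgroup' (moves E (Additive ↥V))).map V.subtype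
  constructor
  · intro hx
    have hle : ⁅V, E.comap (QuotientGroup.mk' (Subgroup.centralizer (V : Set G)))⁆ ≤ S := by
      refine Subgroup.commutator_le.2 fun v hv g hg => ?_
      have hmem := neg_mem (sub_mem_moves (Subgroup.mem_comap.1 hg) (Additive.ofMul (⟨v, hv⟩ : ↥V)))
      refine ⟨_, hmem, ?_⟩
      show (((g * v * g⁻¹) / v)⁻¹ : G) = _
      rw [div_eq_mul_inv, commutatorElement_def, mul_inv_rev, inv_inv, mul_inv_rev, mul_inv_rev,
        inv_inv]
      simp [mul_assoc]
    obtain ⟨y, hy, rfl⟩ := hle hx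
    exact ⟨y.2, hy⟩
  · rintro ⟨hx, hm⟩
    suffices ∀ w ∈ moves E (Additive ↥V), (w.toMul : G) ∈
        ⁅V, E.comap (QuotientGroup.mk' (Subgroup.centralizer (V : Set G)))⁆ from this _ hm
    intro w hw
    induction hw using AddSubgroup.closure_induction with
    | mem w hw =>
      obtain ⟨q, hq, u, rfl⟩ := hw
      obtain ⟨g, rfl⟩ := QuotientGroup.mk'_surjective _ q
      show (g * (u.toMul : G) * g⁻¹) / (u.toMul : G) ∈ _
      rw [div_eq_mul_inv, ← commutatorElement_def, ← commutatorElement_inv]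
      exact inv_mem (Subgroup.commutator_mem_commutator u.toMul.2 hq)
    | zero => exact one_mem _
    | add a b _ _ ha hb => exact mul_mem ha hb
    | neg a _ ha => exact inv_mem ha

/-- A coordinate map on the module induces one on the section. -/
theorem quotAction_section {V : Subgroup G} [V.Normal] [IsMulCommutative ↥V]
    (E : Subgroup (G ⧸ Subgroup.centralizer (V : Set G))) {A : Type} [AddCommGroup A]
    (ψ : Additive ↥V →+ A) :
    letI := quotAction V
    moves E (Additive ↥V) ⊔ fixedSub E = ⊤ → (∀ v, ψ v = 0 ↔ v ∈ fixedSub E) →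
    ∀ E' : Subgroup G, E' = E.comap (QuotientGroup.mk' (Subgroup.centralizer (V : Set G))) →
    (E' ≤ Subgroup.normalizer ((⁅V, E'⁆ : Subgroup G) : Set G)) ∧
    ∃ ψ' : ↥⁅V, E'⁆ →* Multiplicative A,
      (∀ v : Additive ↥V, ∃ u : ↥⁅V, E'⁆, Multiplicative.toAdd (ψ' u) = ψ v) ∧
      (∀ u : ↥⁅V, E'⁆, ψ' u = 1 ↔ (u : G) ∈ ⁅V, E'⁆ ⊓ Subgroup.centralizer (E' : Set G)) ∧
      ∀ u : ↥⁅V, E'⁆, ∃ v : Additive ↥V, Multiplicative.toAdd (ψ' u) = ψ v ∧
        ∀ g ∈ E', ∃ w : ↥⁅V, E'⁆, (w : G) = g * u * g⁻¹ ∧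
          Multiplicative.toAdd (ψ' w) =
            ψ ((QuotientGroup.mk g : G ⧸ Subgroup.centralizer (V : Set G)) • v) := by
  letI := quotAction V
  rintro hsplit hker E' rfl
  set E' := E.comap (QuotientGroup.mk' (Subgroup.centralizer (V : Set G))) with hE'
  have hU : ∀ x, x ∈ ⁅V, E'⁆ ↔ _ := quotAction_moves E
  set U := ⁅V, E'⁆
  have hUV : ∀ {x : G}, x ∈ U → x ∈ V := fun hx => ((hU _).1 hx).1
  let ψ' : ↥U →* Multiplicative A :=
    { toFun := fun u => Multiplicative.ofAdd (ψ (Additive.ofMul ⟨u, hUV u.2⟩))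
      map_one' := congrArg Multiplicative.ofAdd ψ.map_zero
      map_mul' := fun u u' => congrArg Multiplicative.ofAdd
        (ψ.map_add (Additive.ofMul ⟨u, hUV u.2⟩) (Additive.ofMul ⟨u', hUV u'.2⟩)) }
  have hsmul : ∀ g ∈ E', ∀ x ∈ U, g * x * g⁻¹ ∈ U := fun g hg x hx => by
    obtain ⟨hxV, hm⟩ := (hU x).1 hx
    exact (hU _).2 ⟨_, smul_mem_moves_self (Subgroup.mem_comap.1 hg) hm⟩
  refine ⟨?_, ψ', fun v => ?_, fun u => ?_, fun u => ?_⟩
  · intro g hg
    refine Subgroup.mem_normalizer_iff.2 fun x => ⟨hsmul g hg x, fun hx => ?_⟩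
    have := hsmul _ (E'.inv_mem hg) _ hx
    simpa [mul_assoc] using this
  · obtain ⟨m, hm, c, hc, rfl⟩ := AddSubgroup.mem_sup.1
      (show v ∈ moves E (Additive ↥V) ⊔ fixedSub E from hsplit ▸ AddSubgroup.mem_top v)
    refine ⟨⟨(m.toMul : G), (hU _).2 ⟨m.toMul.2, hm⟩⟩, ?_⟩
    rw [map_add, (hker c).2 hc, add_zero]
    rfl
  · have h1 := quotAction_fixedSub E' (Additive.ofMul (⟨u, hUV u.2⟩ : ↥V))
    rw [hE', Subgroup.map_comap_eq_self_of_surjective (QuotientGroup.mk'_surjective _), ← hker] at h1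
    rw [Subgroup.mem_inf, and_iff_right u.2]
    exact h1
  · exact ⟨Additive.ofMul ⟨u, hUV u.2⟩, rfl, fun g hg => ⟨⟨_, hsmul g hg _ u.2⟩, rfl, rfl⟩⟩

end CfsgLib.FFModules.MinimalParabolic
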